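import Mathlib
import Cfsg.Agent.Lib.PGrp.ConjOrder3

/-!
Groups in which (abelian, or prime power order) subgroups of equal order are conjugate, part 4:
solvable groups with conjugate abelian subgroups.
-/

namespace Cfsg.Agent.PGrp

open Subgroup
open scoped commutatorElement

universe u

variable {G : Type*} [Group G] [Finite G] {p : ℕ} [hp : Fact p.Prime]

theorem conj_mem_zpowers_of_forall_card {V W : Subgroup G} [hn : V.Normal]
    (hV : IsElementaryAbelian p V) (hW : W < V) (hb : W ≠ ⊥) {g : G}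
    (h : ∀ U : Subgroup G, U ≤ V → Nat.card U = Nat.card W → g ∈ normalizer (U : Set G))
    {v : G} (hv : v ∈ V) : g * v * g⁻¹ ∈ zpowers v := by
  by_contra h1
  have hVp := IsElementaryAbelian.isPGroup hV
  obtain ⟨M, hM1, hM2, hM3⟩ := exists_index_eq_not_mem (p := p) hV.1
    (fun x => Subtype.ext (hV.2 x x.2)) (H := (zpowers v).subgroupOf V)
    (x := ⟨_, hn.conj_mem v hv g⟩) h1
  obtain ⟨k, hk⟩ := IsPGroup.iff_card.mp (hVp.to_le hW.le)
  have h2 := Nat.le_of_dvd Nat.card_pos (mul_card_dvd_of_lt hVp hW)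
  rw [← M.card_mul_index, hM2, Nat.mul_le_mul_right_iff hp.out.pos, hk,
    ← Core.card_map_subtype] at h2
  have h3 := Nat.le_of_dvd Nat.card_pos
    (mul_card_dvd_of_lt (hVp.to_le hW.le) (bot_lt_iff_ne_bot.mpr hb))
  rw [card_bot, one_mul, hk] at h3
  obtain ⟨L, hL1, hL2, hL3⟩ := exists_card_between (hVp.to_le (map_subtype_le M))
    (H := zpowers v) ((map_subgroupOf_eq_of_le (zpowers_le.mpr hv)).ge.trans (map_mono hM1))
    (by rw [Nat.card_zpowers]
        exact (Nat.le_of_dvd hp.out.pos (orderOf_dvd_of_pow_eq_one (hV.2 v hv))).trans h3) h2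
  have h4 := hL2 ((mem_normalizer_iff.mp (h L (hL2.trans (map_subtype_le M))
    (hL3.trans hk.symm)) v).mp (hL1 (mem_zpowers v)))
  exact hM3 ((mem_map_iff_mem (subtype_injective V)).mp h4)

omit [Finite G] in
theorem mem_centralizer_of_conj_mem_zpowers {V : Subgroup G} (hV : IsElementaryAbelian p V) {a : G}
    (h : ∀ v ∈ V, a * v * a⁻¹ ∈ zpowers v) {w : G} (hw : w ∈ V) (h1 : w ≠ 1)
    (ha : a * w * a⁻¹ = w) : a ∈ centralizer (V : Set G) := by
  refine mem_centralizer_iff.mpr fun v hv => (mul_inv_eq_iff_eq_mul.mp ?_).symm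
  by_cases h2 : v ∈ zpowers w
  · obtain ⟨k, rfl⟩ := mem_zpowers_iff.mp h2
    rw [← conj_zpow, ha]
  have h3 : v * w ∉ zpowers v := fun h3 => h1 ((inf_zpowers_eq_bot h2 (hV.2 v hv)).le
    ⟨mem_zpowers w, (Subgroup.mul_mem_cancel_left _ (mem_zpowers v)).mp h3⟩)
  have h4 : a * v * a⁻¹ * v⁻¹ = a * (v * w) * a⁻¹ * (v * w)⁻¹ := by
    rw [show a * (v * w) * a⁻¹ = a * v * a⁻¹ * (a * w * a⁻¹) by group, ha]; group
  refine mul_inv_eq_one.mp ((inf_zpowers_eq_bot h3 (hV.2 _ (V.mul_mem hv hw))).le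
    ⟨Subgroup.mul_mem _ (h v hv) (Subgroup.inv_mem _ (mem_zpowers v)), ?_⟩)
  rw [h4]
  exact Subgroup.mul_mem _ (h _ (V.mul_mem hv hw)) (Subgroup.inv_mem _ (mem_zpowers _))

theorem ConjAbP.conj_mem_zpowers (h : ConjAbP p G) {V W T : Subgroup G} [V.Normal] [T.Normal]
    (hV : IsElementaryAbelian p V) (hW : W < V) (hb : W ≠ ⊥) (hT : T ≤ normalizer (W : Set G))
    {t : G} (ht : t ∈ T) {v : G} (hv : v ∈ V) : t * v * t⁻¹ ∈ zpowers v := by
  refine conj_mem_zpowers_of_forall_card hV hW hb (fun U hU hc => ?_) hv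
  obtain ⟨g, rfl⟩ := h W U ((IsElementaryAbelian.isPGroup hV).to_le hW.le)
    (isMulCommutative_of_le hV.1 hW.le) (isMulCommutative_of_le hV.1 hU) hc.symm
  exact (Coprime.map_conj_eq_of_normal T g).ge.trans ((map_mono hT).trans (le_normalizer_map _)) ht

theorem isCyclic_mulAut_of_card_prime (h : Nat.card G = p) : IsCyclic (MulAut G) := by
  have := isCyclic_of_prime_card h
  have h1 := IsCyclic.mulAutMulEquiv G
  rw [h] at h1
  exact h1.isCyclic.mpr inferInstance

theorem ConjAbP.le_centralizer_of_conj_mem_zpowers {q : ℕ} [hq : Fact q.Prime] (h : ConjAbP q G)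
    {Q V : Subgroup G} [V.Normal] (hQ : IsPGroup q Q) (hc : ¬ IsCyclic Q)
    (hV : IsElementaryAbelian p V) (hQV : ∀ t ∈ Q, ∀ v ∈ V, t * v * t⁻¹ ∈ zpowers v) :
    Q ≤ centralizer (V : Set G) := by
  by_cases hb : V = ⊥
  · exact le_centralizer_iff.mp (hb ▸ bot_le)
  obtain ⟨v, hv, ho⟩ := exists_orderOf_eq_prime_of_ne_bot (IsElementaryAbelian.isPGroup hV) hb
  have hv1 : v ≠ 1 := fun h => hp.out.one_lt.ne (by rw [← ho, h, orderOf_one])
  have hn : Q ≤ normalizer (zpowers v : Set G) := fun t ht => mem_normalizer_fintype fun u hu => by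
    obtain ⟨k, rfl⟩ := mem_zpowers_iff.mp hu
    rw [← conj_zpow]
    exact Subgroup.zpow_mem _ (hQV t ht v hv) k
  have := isCyclic_mulAut_of_card_prime ((Nat.card_zpowers v).trans ho)
  have key : ∀ a ∈ (Coprime.conjHom hn).ker, (a : G) ∈ centralizer (V : Set G) := fun a ha =>
    mem_centralizer_of_conj_mem_zpowers hV (hQV a a.2) hv hv1 (mul_inv_eq_iff_eq_mul.mpr
      (mem_centralizer_iff.mp ((Coprime.mem_ker_conjHom hn a).mp ha) v (mem_zpowers v)).symm)
  by_cases hr : PRankLE q 1 G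
  · have hr' := pRankLE_subgroup hr Q
    obtain rfl : q = 2 := by
      by_contra h2
      exact hc (isCyclic_of_rank_le_one_of_odd hQ h2 hr')
    obtain ⟨a, ha, ha'⟩ : ∃ a ∈ (Coprime.conjHom hn).ker, a ^ 2 ≠ 1 := by
      by_contra! h1
      exact hc (isCyclic_of_comm_of_rank_le_one hQ ⟨⟨commutative_of_cyclic_center_quotient _
        (le_center_of_normal_of_card_le_two (hr' _ (isMulCommutative_of_sq_eq_one h1) h1))⟩⟩ hr')
    obtain ⟨k, hk⟩ := Core.exists_orderOf_eq_pow_of_mem hQ a.2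
    exact h.le_of_normal_of_sq_ne_one hQ hc (key a ha) hk fun h => ha' (Subtype.ext h)
  · obtain ⟨a, ha, ha'⟩ := exists_orderOf_eq_prime_of_ne_bot
      (hQ.to_subgroup (Coprime.conjHom hn).ker) fun h1 => hc (isCyclic_of_injective _ ((MonoidHom.ker_eq_bot_iff _).mp h1))
    refine h.le_of_normal hr ?_ hQ
    rw [← ha', ← Subgroup.orderOf_coe]
    exact Subgroup.orderOf_dvd_natCard _ (key a ha)

omit hp [Finite G] in
theorem subgroupMap_injective_of_inf_ker {H : Type*} [Group H] {f : G →* H} {Q : Subgroup G}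
    (h : Q ⊓ f.ker = ⊥) : Function.Injective (f.subgroupMap Q) :=
  (MonoidHom.ker_eq_bot_iff _).mp (eq_bot_iff.mpr fun x hx =>
    Subtype.ext (h.le ⟨x.2, congrArg Subtype.val hx⟩))

theorem normal_of_isSylowIn_of_le_normalizer {Q T : Subgroup G} [hT : T.Normal]
    (hQ : Coprime.IsSylowIn p Q T) (h : T ≤ normalizer (Q : Set G)) : Q.Normal :=
  ⟨fun x hx g => by
    have h1 := zpowers_le.mpr (hT.conj_mem x (hQ.1 hx) g)
    obtain ⟨k, hk⟩ := Core.exists_orderOf_eq_pow_of_mem hQ.2.1 hx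
    exact hQ.le_of_le_normalizer' h1 (Core.isPGroup_zpowers_of_orderOf
      ((MulAut.conj g).orderOf_eq x |>.trans hk)) (h1.trans h) (mem_zpowers _)⟩

/-- Normality of noncyclic Sylow subgroups. -/
theorem ConjAb.normal_of_isSylowIn (G : Type u) [Group G] [Finite G] : ConjAb G →
    Group.IsSolvable G → (¬ PRankLE p 1 G ∨ ∀ q : ℕ, q.Prime → q ≠ p → CycP q G) →
    ∀ Q : Subgroup G, Coprime.IsSylowIn p Q ⊤ → ¬ IsCyclic Q → Q.Normal := by
  refine Core.induction_on_card (P := fun G _ _ => ConjAb G →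
    Group.IsSolvable G → (¬ PRankLE p 1 G ∨ ∀ q : ℕ, q.Prime → q ≠ p → CycP q G) →
    ∀ Q : Subgroup G, Coprime.IsSylowIn p Q ⊤ → ¬ IsCyclic Q → Q.Normal) ?_ G
  intro G _ _ ih h hs hRC Q hQ hc
  rcases subsingleton_or_nontrivial G with _ | _
  · exact absurd (inferInstanceAs (IsCyclic Q)) hc
  obtain ⟨N, hN⟩ := Core.exists_isMinNormal (G := G)
  have := hN.normal
  obtain ⟨q, hq, hN'⟩ := hN.exists_isElementaryAbelian inferInstance
  have := Fact.mk hq
  have hNp := IsElementaryAbelian.isPGroup hN'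
  have hqN : q ∣ Nat.card N := by
    simpa using mul_card_dvd_of_lt hNp (bot_lt_iff_ne_bot.mpr hN.ne_bot)
  have hf := QuotientGroup.mk'_surjective N
  have hQ' := hQ.map (QuotientGroup.mk' N)
  rw [← MonoidHom.range_eq_map, MonoidHom.range_eq_top.mpr hf] at hQ'
  have ih' := fun h1 h2 => Core.comap_map_mk N Q ▸ (ih _ (Core.card_quotient_lt hN.ne_bot)
    (h.quotient_of_isMinNormal hN) inferInstance h1 _ hQ' h2).comap (QuotientGroup.mk' N)
  have hC : (∀ q : ℕ, q.Prime → q ≠ p → CycP q G) → ∀ q : ℕ, q.Prime → q ≠ p → CycP q (G ⧸ N) :=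
    fun h1 r hr hrp => have := Fact.mk hr; (h1 r hr hrp).of_surjective hf
  by_cases hqp : q = p
  · subst hqp
    have h1 : N ≤ Q := hQ.le_of_le_normalizer le_top hNp Subgroup.le_normalizer_of_normal
    by_cases hr : PRankLE q 1 G
    · rw [← sup_eq_left.mpr h1]
      have hr' := pRankLE_subgroup hr Q
      refine ih' (Or.inr (hC (hRC.resolve_left (not_not.mpr hr)))) fun _ => hc ?_
      obtain rfl : q = 2 := by
        by_contra h2
        exact hc (isCyclic_of_rank_le_one_of_odd hQ.2.1 h2 hr')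
      refine isCyclic_of_comm_of_rank_le_one hQ.2.1 ⟨⟨commutative_of_cyclic_center_quotient
        ((QuotientGroup.mk' N).subgroupMap Q) fun x hx => ?_⟩⟩ hr'
      exact Subgroup.mem_center_iff.mpr fun y => Subtype.ext (Subgroup.mem_center_iff.mp
        (le_center_of_normal_of_card_le_two (hr N hN'.1 hN'.2)
          ((QuotientGroup.eq_one_iff _).mp (congrArg Subtype.val hx))) y)
    · exact le_antisymm h1 ((h.conjAbP q).le_of_normal hr hqN hQ.2.1) ▸ hN.normal
  have hcop : ∀ R : Subgroup G, IsPGroup p R → (Nat.card R).Coprime (Nat.card N) := fun R hR =>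
    Core.coprime_card_of_isPGroup hR (Core.coprime_card_of_isPGroup hNp
      ((Nat.coprime_primes hp.out hq).mpr (Ne.symm hqp)))
  have hinj : ∀ R : Subgroup G, IsPGroup p R →
      Function.Injective ((QuotientGroup.mk' N).subgroupMap R) := fun R hR =>
    subgroupMap_injective_of_inf_ker
      (by rw [QuotientGroup.ker_mk']; exact Core.inf_eq_bot_of_coprime_card (hcop R hR))
  have hT := ih' (hRC.imp (fun hr hr' => by
    obtain ⟨E, hE, hE'⟩ := exists_elemAb_card_eq_of_not_rank_le hr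
    have h1 := isElementaryAbelian_map hE (QuotientGroup.mk' N)
    have h2 := (Nat.card_le_card_of_injective _ (hinj E (IsElementaryAbelian.isPGroup hE))).trans
      (hr' _ h1.1 h1.2)
    rw [hE', Nat.pow_le_pow_iff_right hp.out.one_lt] at h2
    omega) hC) fun _ => hc (isCyclic_of_injective _ (hinj Q hQ.2.1))
  have key := (h.conjAbP p).le_centralizer_of_conj_mem_zpowers hQ.2.1 hc hN'
  have h1 : Q ≤ centralizer (N : Set G) := by
    by_cases h1 : Nat.card N = q
    · refine key fun t _ v hv => ?_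
      by_cases h2 : v = 1
      · simp [h2]
      rw [eq_of_le_of_card_prime (zpowers_le.mpr hv) h1 (zpowers_ne_bot.mpr h2)]
      exact hN.normal.conj_mem v hv t
    have hr := hRC.resolve_right fun h2 =>
      not_rank_le_one_of_lt hN' h1 hN.ne_bot (h2 q hq hqp).pRankLE
    have hQc := ((h.conjAbP p).isElementaryAbelian hr (H := ⊤)
      (Coprime.isPSolvable_of_isSolvable inferInstance) (dvd_trans (by
        simpa using mul_card_dvd_of_lt hQ.2.1 (bot_lt_iff_ne_bot.mpr
          fun h2 => hc (h2 ▸ inferInstance))) (card_dvd_of_le hQ.1)) hQ.2.1).1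
    obtain ⟨a, ha, ha1, ha2⟩ := Coprime.exists_inf_centralizer_ne_bot hQc hc
      Subgroup.le_normalizer_of_normal (hcop Q hQ.2.1) hN.ne_bot
    rcases (inf_le_left : N ⊓ centralizer {a} ≤ N).eq_or_lt with h2 | h2
    · refine (h.conjAbP p).le_of_normal hr ?_ hQ.2.1
      obtain ⟨k, hk⟩ := Core.exists_orderOf_eq_pow_of_mem hQ.2.1 ha
      refine dvd_trans ?_ (Subgroup.orderOf_dvd_natCard _ (mem_centralizer_iff.mpr fun n hn =>
        mem_centralizer_singleton_iff.mp (h2.ge hn).2))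
      exact hk ▸ dvd_pow_self p fun h3 => ha1 (orderOf_eq_one_iff.mp (by rw [hk, h3, pow_zero]))
    refine key fun t ht v hv => (h.conjAbP q).conj_mem_zpowers (T := Q ⊔ N) hN' h2 ha2
      (sup_le (Core.le_normalizer_inf Subgroup.le_normalizer_of_normal
        (le_trans (fun x hx => mem_centralizer_singleton_iff.mpr
          (isMulCommutative_iff_mem.mp hQc x hx a ha)) le_normalizer)) ?_) (mem_sup_left ht) hv
    exact le_trans (fun x hx => mem_centralizer_iff.mpr fun y hy =>
      isMulCommutative_iff_mem.mp hN'.1 y hy.1 x hx) (centralizer_le_normalizer _)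
  exact normal_of_isSylowIn_of_le_normalizer (hQ.mono le_sup_left le_top)
    (sup_le le_normalizer ((le_centralizer_iff.mp h1).trans (centralizer_le_normalizer _)))

omit [Finite G] hp in
theorem conjP_subgroup_of {S : Subgroup G} (h : ∀ A B : Subgroup G, A ≤ S → B ≤ S → IsPGroup p A →
    IsPGroup p B → Nat.card A = Nat.card B → ∃ s ∈ S, B = A.map (MulAut.conj s).toMonoidHom) :
    ConjP p S := fun A B hA hB hc => by
  obtain ⟨s, hs, hs'⟩ := h _ _ (map_subtype_le A) (map_subtype_le B) (hA.map _) (hB.map _)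
    (by rw [Core.card_map_subtype, Core.card_map_subtype, hc])
  exact ⟨⟨s, hs⟩, map_injective S.subtype_injective (by rw [Coprime.map_map_conj, hs']; rfl)⟩

omit hp in
theorem ConjAb.conjP_two (h : ConjAb G) [hs : Group.IsSolvable G] (hr : PRankLE 2 1 G)
    (hO : ∀ p : ℕ, p.Prime → IsElementaryAbelian p (pCore p G)) {H W : Subgroup G}
    (hE : IsMulCommutative (fittingSubgroup G)) (hH : fittingSubgroup G ⊓ H = ⊥)
    (hH' : fittingSubgroup G ⊔ H = ⊤) (hC : ∀ p : ℕ, p.Prime → p ≠ 2 → CycP p H)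
    (hW : W ≤ fittingSubgroup G) : ConjP 2 ↥(H ⊓ normalizer (W : Set G)) := by
  set E := fittingSubgroup G
  obtain ⟨Q, hQ⟩ := Coprime.exists_isSylowIn 2 (H ⊓ normalizer (W : Set G))
  have hQH := hQ.1.trans inf_le_left
  have hEc : ∀ U : Subgroup G, U ≤ E → E ≤ normalizer (U : Set G) := fun U hU =>
    le_trans (fun x hx => mem_centralizer_iff.mpr fun y hy =>
      isMulCommutative_iff_mem.mp hE y (hU hy) x hx) (centralizer_le_normalizer _)
  suffices key : ∀ A B : Subgroup G, A ≤ Q → B ≤ Q → Nat.card A = Nat.card B →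
      ∃ s ∈ H ⊓ normalizer (W : Set G), B = A.map (MulAut.conj s).toMonoidHom by
    refine conjP_subgroup_of fun A B hA hB hA' hB' hc => ?_
    obtain ⟨a, ha, ha'⟩ := hQ.exists_le_conj hA hA'
    obtain ⟨b, hb, hb'⟩ := hQ.exists_le_conj hB hB'
    have h1 : ∀ (X : Subgroup G) (x : G), X ≤ Q.map (MulAut.conj x).toMonoidHom →
        X.map (MulAut.conj x⁻¹).toMonoidHom ≤ Q := fun X x hx => (map_mono hx).trans (by
      rw [Coprime.map_conj_map_conj, inv_mul_cancel, Coprime.map_conj_one])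
    obtain ⟨s, hs, hs'⟩ := key _ _ (h1 A a ha') (h1 B b hb')
      (by rw [Coprime.card_map_conj, Coprime.card_map_conj, hc])
    refine ⟨b * (s * a⁻¹), Subgroup.mul_mem _ hb (Subgroup.mul_mem _ hs (Subgroup.inv_mem _ ha)), ?_⟩
    rw [← Coprime.map_conj_map_conj, ← Coprime.map_conj_map_conj, ← hs', Coprime.map_conj_map_conj,
      mul_inv_cancel, Coprime.map_conj_one]
  intro A B hA hB hc
  by_cases hAB : A = B
  · exact ⟨1, one_mem _, by rw [Coprime.map_conj_one, hAB]⟩
  have hQc : ¬ IsCyclic Q := fun _ => hAB (eq_of_card_eq_of_isCyclic hA hB hc)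
  have h8 := h.card_eq_eight hr hQ.2.1 hQc
  have hcyc : ∀ A B : Subgroup G, A ≤ Q → B ≤ Q → Nat.card A = Nat.card B → A ≠ B →
      IsCyclic A := fun A B hA hB hc hAB => by
    by_contra h1
    have h2 := (h.card_eq_eight hr (hQ.2.1.to_le hA) h1).trans h8.symm
    exact hAB ((eq_of_le_of_card_eq hA h2).trans (eq_of_le_of_card_eq hB (hc ▸ h2)).symm)
  have := hcyc A B hA hB hc hAB
  have := hcyc B A hB hA hc.symm (Ne.symm hAB)
  have hQG : Coprime.IsSylowIn 2 Q ⊤ :=
    Coprime.isSylowIn_of_maximal le_top hQ.2.1 fun U hU _ hU' => (eq_of_le_of_card_eq hU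
      (h8.trans (h.card_eq_eight hr hU' fun _ => hQc (Subgroup.isCyclic_of_le hU)).symm)).symm
  have hf := QuotientGroup.mk'_surjective E
  have hQ' := hQG.map (QuotientGroup.mk' E)
  rw [← MonoidHom.range_eq_map, MonoidHom.range_eq_top.mpr hf] at hQ'
  have hT : (Q ⊔ E).Normal := by
    rw [← Core.comap_map_mk]
    refine (ConjAb.normal_of_isSylowIn _ (ConjAb.of_surjective G h hs hf) inferInstance
      (Or.inr fun p hp h2 => ?_) _ hQ' fun _ => hQc (isCyclic_of_injective _
        (subgroupMap_injective_of_inf_ker (f := QuotientGroup.mk' E) ?_))).comap _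
    · have := Fact.mk hp
      refine (hC p hp h2).of_surjective (f := (QuotientGroup.mk' E).comp H.subtype) ?_
      rw [← MonoidHom.range_eq_top, MonoidHom.range_comp, range_subtype, eq_top_iff,
        ← MonoidHom.range_eq_top.mpr hf, MonoidHom.range_eq_map, Core.map_mk_le_map_mk_iff,
        sup_comm, hH']
    · rw [QuotientGroup.ker_mk', eq_bot_iff, ← hH, inf_comm]
      exact inf_le_inf_left _ hQH
  have hN : normalizer ((W ⊓ centralizer (Q : Set G) : Subgroup G) : Set G) ≤
      normalizer (W : Set G) := fun g hg => mem_normalizer_fintype fun w hw => by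
    refine Cls.mem_of_forall_prime_pow (H := W.comap (MulAut.conj g).toMonoidHom)
      fun p hp u hu ⟨k, hk⟩ => ?_
    have := Fact.mk hp
    have hu' := zpowers_le.mpr hw hu
    have h1 : u ∈ pCore p G := Core.le_pCore_of_le_fitting (Core.isPGroup_zpowers_of_orderOf hk)
      (zpowers_le.mpr (hW hu')) (mem_zpowers u)
    rcases (inf_le_right : W ⊓ pCore p G ≤ pCore p G).eq_or_lt with h2 | h2
    · exact (h2.ge (Subgroup.Normal.conj_mem inferInstance u h1 g)).1
    by_cases h3 : W ⊓ pCore p G = ⊥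
    · rw [mem_bot.mp (h3.le ⟨hu', h1⟩)]
      exact one_mem _
    have h4 := (h.conjAbP 2).le_centralizer_of_conj_mem_zpowers hQ.2.1 hQc (hO p hp)
      fun t ht v hv => (h.conjAbP p).conj_mem_zpowers (T := Q ⊔ E) (hO p hp) h2 h3
        (sup_le (Core.le_normalizer_inf (hQ.1.trans inf_le_right) Subgroup.le_normalizer_of_normal)
          (hEc _ (inf_le_left.trans hW))) (mem_sup_left ht) hv
    exact ((mem_normalizer_iff.mp hg u).mp (mem_inf.mpr ⟨hu', le_centralizer_iff.mp h4 h1⟩)).1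
  set U := W ⊓ centralizer (Q : Set G)
  have hU : U ≤ E := inf_le_left.trans hW
  have h1 : ∀ A : Subgroup G, A ≤ Q → A ≤ centralizer (U : Set G) := fun A hA =>
    hA.trans (le_centralizer_iff.mp inf_le_right)
  have h2 : ∀ A : Subgroup G, A ≤ H → A ⊓ E = ⊥ := fun A hA =>
    eq_bot_iff.mpr (hH ▸ inf_comm A E ▸ inf_le_inf_left _ hA)
  have h3 : ∀ A : Subgroup G, A ≤ Q → Nat.card ↥(A ⊔ U) = Nat.card A * Nat.card U := fun A hA =>
    Core.card_sup_of_disjoint ((h1 A hA).trans (centralizer_le_normalizer _))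
      (eq_bot_iff.mpr (h2 A (hA.trans hQH) ▸ inf_le_inf_left _ hU))
  obtain ⟨g, hg⟩ := h (A ⊔ U) (B ⊔ U)
    (isMulCommutative_sup inferInstance (isMulCommutative_of_le hE hU) (h1 A hA))
    (isMulCommutative_sup inferInstance (isMulCommutative_of_le hE hU) (h1 B hB))
    (by rw [h3 A hA, h3 B hB, hc])
  have h4 : g ∈ normalizer (W : Set G) := hN (mem_normalizer_fintype fun u hu => by
    have h4 := Core.sup_inf_eq_inf_sup_of_le_normalizer
      ((h1 B hB).trans (centralizer_le_normalizer _)) hU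
    rw [h2 B (hB.trans hQH), bot_sup_eq] at h4
    exact h4.le ⟨hg.ge (mem_map_of_mem _ (mem_sup_right hu)),
      Subgroup.Normal.conj_mem inferInstance u (hU hu) g⟩)
  obtain ⟨e, he, k, hk, rfl⟩ := (Coprime.mem_sup_of_le_normalizer (N := E) (A := H)
    Subgroup.le_normalizer_of_normal).mp (hH' ▸ mem_top g)
  refine ⟨k, ⟨hk, (Subgroup.mul_mem_cancel_left _ (hEc W hW he)).mp h4⟩, (eq_of_le_of_card_eq ?_
    (by rw [Coprime.card_map_conj, hc])).symm⟩
  have h5 := Core.sup_inf_assoc_of_le_normalizer (A := B) (N := E) (B := H)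
    Subgroup.le_normalizer_of_normal (hB.trans hQH)
  rw [hH, sup_bot_eq] at h5
  refine le_trans (le_inf ?_ ((map_mono (hA.trans hQH)).trans
    (Coprime.map_conj_eq_of_mem hk).le)) h5.le
  rw [← Coprime.map_conj_eq_of_mem (H := B ⊔ E) (g := e⁻¹) (mem_sup_right (E.inv_mem he)),
    ← inv_mul_cancel_left e k, ← Coprime.map_conj_map_conj]
  exact map_mono (((map_mono le_sup_left).trans hg.ge).trans (sup_le_sup_left hU B))

omit hp in
theorem ConjAb.conjAll (G : Type u) [Group G] [Finite G] : ConjAb G → Group.IsSolvable G →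
    ConjAll G := by
  refine Core.induction_on_card (P := fun G _ _ => ConjAb G → Group.IsSolvable G → ConjAll G) ?_ G
  intro G _ _ ih h hs
  by_cases h1 : ∃ N : Subgroup G, Core.IsMinNormal N ∧ (Nat.card N).Prime
  · obtain ⟨N, hN, hp⟩ := h1
    have := Fact.mk hp
    have := hN.normal
    exact conjAll_of_card_prime (h.conjAbP _) rfl
      (ih _ (Core.card_quotient_lt hN.ne_bot) (h.quotient_of_isMinNormal hN) inferInstance)
  have h2 : ∀ p : ℕ, p.Prime → pCore p G ≠ ⊥ → ¬ PRankLE p 1 G := fun p hp hb => by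
    have := Fact.mk hp
    obtain ⟨N, hN, hN'⟩ := Core.exists_isMinNormal_le hb
    exact not_rank_le_one_of_lt (hN.isElementaryAbelian_of_isPGroup
      ((Core.isPGroup_pCore p).to_le hN')) (fun h2 => h1 ⟨N, hN, h2 ▸ hp⟩) hN.ne_bot
  have hO : ∀ p : ℕ, p.Prime → IsElementaryAbelian p (pCore p G) := fun p hp => by
    have := Fact.mk hp
    by_cases hb : pCore p G = ⊥
    · exact hb ▸ isElementaryAbelian_bot
    exact (h.conjAbP p).isElementaryAbelian (h2 p hp hb) (H := pCore p G)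
      (Coprime.isPSolvable_of_isSolvable inferInstance) (by
        simpa using mul_card_dvd_of_lt (Core.isPGroup_pCore p) (bot_lt_iff_ne_bot.mpr hb))
      (Core.isPGroup_pCore p)
  have hE : IsMulCommutative (fittingSubgroup G) :=
    isMulCommutative_of_nilpotent Core.isNilpotent_fitting fun q hq Q hQ hQ' =>
      have := Fact.mk hq
      isMulCommutative_of_le (hO q hq).1 (Core.le_pCore_of_le_fitting hQ' hQ)
  have h3 : (Nat.card (fittingSubgroup G)).Coprime (fittingSubgroup G).index :=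
    Core.coprime_iff_forall_prime.mpr fun q hq hd => by
      have := Fact.mk hq
      obtain ⟨x, hx, ho⟩ := Core.exists_mem_orderOf_eq_of_dvd_card hd
      refine (h.conjAbP q).not_dvd_index (h2 q hq fun hb => hq.one_lt.ne' ?_) hd
      have := Core.le_pCore_of_le_fitting (Core.isPGroup_zpowers_of_orderOf
        (ho.trans (pow_one q).symm)) (zpowers_le.mpr hx) (mem_zpowers x)
      rw [← ho, mem_bot.mp (hb.le this), orderOf_one]
  obtain ⟨H, hH, hH'⟩ := exists_complement_of_coprime_index h3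
  rw [← hH'] at h3
  have h4 : ∀ q : ℕ, q.Prime → ¬ PRankLE q 1 G → CycP q H := fun q hq hr => by
    have := Fact.mk hq
    obtain ⟨Q, hQ⟩ := Coprime.exists_isSylowIn q (⊤ : Subgroup G)
    have := ConjAb.normal_of_isSylowIn G h hs (Or.inl hr) Q hQ fun _ => hr (CycP.pRankLE
      fun R hR => by
        obtain ⟨g, -, hg⟩ := hQ.exists_le_conj (le_top : R ≤ ⊤) hR
        have := isCyclic_of_surjective _ ((MulAut.conj g).toMonoidHom.subgroupMap_surjective Q)
        exact Subgroup.isCyclic_of_le hg)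
    refine cycP_of_not_dvd fun h4 => hQ.2.2 ?_
    rw [relIndex_top_right]
    exact (hH' ▸ h4).trans (index_dvd_of_le (Core.le_fitting hQ.2.1.isNilpotent))
  have h5 : ∀ q : ℕ, q.Prime → q ≠ 2 → CycP q H := fun q hq h2 => by
    have := Fact.mk hq
    by_cases hr : PRankLE q 1 G
    · exact CycP.subgroup (fun R hR =>
        isCyclic_of_rank_le_one_of_odd hR h2 (pRankLE_subgroup hr R)) H
    · exact h4 q hq hr
  have h6 : ∀ q : ℕ, ∀ K : Subgroup G, CycP q H → CycP q ↥(H ⊓ K) := fun q K h6 R hR => by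
    have := h6 _ (hR.map (inclusion inf_le_left))
    exact (R.equivMapOfInjective _ (inclusion_injective _)).isCyclic.mpr this
  refine conjAll_of_split hE hH h3 (fun A B hA hB =>
    h A B (isMulCommutative_of_le hE hA) (isMulCommutative_of_le hE hB)) fun W hW =>
    conjAll_of_conjP 2 _ inferInstance (fun q hq => ?_) fun q hq h2 => h6 q _ (h5 q hq h2)
  have := Fact.mk hq
  by_cases h7 : q = 2 ∧ PRankLE 2 1 G
  · obtain ⟨rfl, hr⟩ := h7
    exact h.conjP_two hr hO hE (Core.inf_eq_bot_of_coprime_card h3) hH h5 hW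
  by_cases h8 : q = 2
  · exact (h6 q _ (h4 q hq fun hr => h7 ⟨h8, h8 ▸ hr⟩)).conjP
  · exact (h6 q _ (h5 q hq h8)).conjP

end Cfsg.Agent.PGrp
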