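import Mathlib
import Cfsg.Agent.Lib.PGrp.Kulakoff

/-!
Counting `p`-subgroups of a finite group modulo `p ^ 2`.
-/

namespace Cfsg.Agent.PGrp

open Subgroup

variable {G : Type*} [Group G]

/-- The conjugation action of a subgroup on all subgroups. -/
abbrev conjActionSub (P : Subgroup G) : MulAction P (Subgroup G) where
  smul g H := H.map (MulAut.conj (g : G)).toMonoidHom
  one_smul H := Coprime.map_conj_one H
  mul_smul a b H := (Coprime.map_conj_map_conj H b a).symm

theorem index_stabilizer_conjActionSub (P H : Subgroup G) :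
    (letI := conjActionSub P; (MulAction.stabilizer P H).index) =
      (normalizer (H : Set G)).relIndex P := by
  letI := conjActionSub P
  refine congrArg index (Subgroup.ext fun g => ?_)
  exact mem_normalizer_iff_map_conj_eq.symm

theorem normalizer_map_conj (H : Subgroup G) (g : G) :
    normalizer ((H.map (MulAut.conj g).toMonoidHom : Subgroup G) : Set G) =
      (normalizer (H : Set G)).map (MulAut.conj g).toMonoidHom :=
  (map_equiv_normalizer_eq H (MulAut.conj g)).symm

theorem map_conj_le_iff {H P : Subgroup G} {g : G} (hg : g ∈ normalizer (P : Set G)) :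
    H.map (MulAut.conj g).toMonoidHom ≤ P ↔ H ≤ P := by
  conv_lhs => rw [← Coprime.map_conj_eq_of_mem_normalizer hg]
  exact map_le_map_iff_of_injective (MulAut.conj g).injective

theorem relIndex_normalizer_map_conj {H P : Subgroup G} {g : G} (hg : g ∈ P) :
    (normalizer ((H.map (MulAut.conj g).toMonoidHom : Subgroup G) : Set G)).relIndex P =
      (normalizer (H : Set G)).relIndex P := by
  rw [normalizer_map_conj, ← Coprime.relIndex_map_conj (normalizer (H : Set G)) P g,
    Coprime.map_conj_eq_of_mem hg]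

variable [Finite G] {p : ℕ} [hp : Fact p.Prime]

theorem dvd_card_fiber_not_le {P H : Subgroup G} (hP : Coprime.IsSylowIn p P ⊤) {a : ℕ}
    (ha : p ^ (a + 1) ≤ Nat.card P) (h1 : Nat.card H = p ^ a) (h2 : ¬ H ≤ P)
    (h3 : (normalizer (H : Set G)).relIndex P = p) :
    p ∣ Nat.card {K : Subgroup G // P ⊓ normalizer (K : Set G) ⊔ K =
      P ⊓ normalizer (H : Set G) ⊔ H ∧ (Nat.card K = p ^ a ∧ ¬ K ≤ P) ∧
      (normalizer (K : Set G)).relIndex P = p} := by
  set R := P ⊓ normalizer (H : Set G)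
  have hR : R.relIndex P = p := by rwa [inf_relIndex_left]
  have hY := isPGroup_sup_of_le_normalizer (hP.2.1.to_le inf_le_left) (IsPGroup.of_card h1)
    (inf_le_right : R ≤ _)
  have h4 := card_mul_relIndex (inf_le_left : R ≤ P)
  have h5 : R < R ⊔ H := left_lt_sup.mpr fun h => h2 (h.trans inf_le_left)
  have h6 : R.relIndex (R ⊔ H) = p := by
    obtain ⟨g, -, hg⟩ := hP.exists_le_conj le_top hY
    have h6 := card_le_of_le hg
    rw [Coprime.card_map_conj, ← h4, ← card_mul_relIndex h5.le, hR] at h6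
    exact le_antisymm (Nat.le_of_mul_le_mul_left h6 Nat.card_pos) (Nat.le_of_dvd
      (Nat.pos_of_ne_zero index_ne_zero_of_finite) (dvd_relIndex_of_not_le hY h5.not_ge))
  have h7 : P ⊓ (R ⊔ H) = R := by
    by_contra h7
    exact h2 (le_sup_right.trans ((eq_of_lt_of_relIndex_eq_prime h6 (lt_of_le_of_ne
      (le_inf inf_le_left le_sup_left) (Ne.symm h7)) inf_le_right).ge.trans inf_le_left))
  have h8 : R ⊔ H ≤ normalizer (R : Set G) :=
    (normal_subgroupOf_iff_le_normalizer h5.le).mp (normal_of_index_eq hY h6)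
  have h9 := card_modEq_card_normalized hY
    (fun K => (K ≤ R ⊔ H ∧ Nat.card K = p ^ a) ∧ ¬ K ≤ R) fun g hg K hK =>
      ⟨⟨(map_conj_le_iff (le_normalizer hg)).mpr hK.1.1, (card_map_conj K g).trans hK.1.2⟩,
        mt (map_conj_le_iff (h8 hg)).mp hK.2⟩
  have h10 := card_eq_card_add_card (fun K : Subgroup G => K ≤ R ⊔ H ∧ Nat.card K = p ^ a) (· ≤ R)
  rw [Nat.card_congr (Equiv.subtypeEquivRight (q := fun K : Subgroup G => K ≤ R ∧ Nat.card K = p ^ a)
    (p := fun K : Subgroup G => (K ≤ R ⊔ H ∧ Nat.card K = p ^ a) ∧ K ≤ R) fun K =>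
    ⟨fun h => ⟨h.2, h.1.2⟩, fun h => ⟨⟨h.1.trans h5.le, h.2⟩, h.1⟩⟩), card_subgroups_le,
    card_subgroups_le] at h10
  have h11 : p ^ a ≤ Nat.card R := by
    rw [← h4, hR, pow_succ] at ha
    exact Nat.le_of_mul_le_mul_right ha hp.out.pos
  have h12 := card_subgroups_modEq_one hY (h11.trans (card_le_of_le h5.le))
  rw [h10] at h12
  have h13 := h9.symm.trans (Nat.ModEq.add_left_cancel
    (card_subgroups_modEq_one (hY.to_le h5.le) h11) (h12.trans (Nat.ModEq.refl (1 + 0))))
  refine ((Nat.modEq_zero_iff_dvd).mp h13).trans (dvd_of_eq (Nat.card_congr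
    (Equiv.subtypeEquivRight fun K => ⟨fun ⟨⟨⟨k1, k2⟩, k3⟩, k4⟩ => ?_, fun ⟨k1, k2, k3⟩ => ?_⟩)))
  · have k5 : ¬ K ≤ P := fun h => k3 (h7 ▸ le_inf h k1)
    have k6 : P ⊓ normalizer (K : Set G) = R := by
      by_contra k6
      exact k5 (hP.le_of_le_normalizer le_top (IsPGroup.of_card k2)
        ((eq_of_lt_of_relIndex_eq_prime hR (lt_of_le_of_ne (le_inf inf_le_left
          (le_sup_left.trans k4)) (Ne.symm k6)) inf_le_left).ge.trans inf_le_right))
    refine ⟨?_, ⟨k2, k5⟩, by rw [← inf_relIndex_left, k6, hR]⟩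
    rw [k6]
    exact eq_of_lt_of_relIndex_eq_prime h6 (left_lt_sup.mpr k3) (sup_le le_sup_left k1)
  · exact ⟨⟨⟨le_sup_right.trans k1.le, k2.1⟩, fun h => k2.2 (h.trans inf_le_left)⟩,
      k1.ge.trans (sup_le inf_le_right le_normalizer)⟩

theorem sq_dvd_card_not_le {P : Subgroup G} (hP : Coprime.IsSylowIn p P ⊤) {a : ℕ}
    (ha : p ^ (a + 1) ≤ Nat.card P) :
    p ^ 2 ∣ Nat.card {H : Subgroup G // Nat.card H = p ^ a ∧ ¬ H ≤ P} := by
  classical
  have := Fintype.ofFinite (Subgroup G)
  letI := conjActionSub P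
  have key : ∀ H : Subgroup G, IsPGroup p H → ¬ H ≤ P → p ∣ (normalizer (H : Set G)).relIndex P :=
    fun H hH h => dvd_relIndex_of_not_le hP.2.1 fun h1 => h (hP.le_of_le_normalizer le_top hH h1)
  rw [card_eq_card_add_card _ fun H : Subgroup G => (normalizer (H : Set G)).relIndex P = p,
    card_eq_sum_card_fiber fun H : {H : Subgroup G // (Nat.card H = p ^ a ∧ ¬ H ≤ P) ∧
      (normalizer (H : Set G)).relIndex P = p} => P ⊓ normalizer (H.1 : Set G) ⊔ H.1,
    Finset.sum_congr rfl fun Y _ => card_subtype_subtype _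
      fun H : Subgroup G => P ⊓ normalizer (H : Set G) ⊔ H = Y, card_subtype_eq_sum]
  refine Int.natCast_dvd_natCast.mp ?_
  push_cast
  refine dvd_add (dvd_sum_of_orbit (A := P) _ _ (fun g Y => ?_) fun Y => ?_)
    (dvd_sum_of_orbit (A := P) _ _ (fun g H => if_congr ?_ rfl rfl) fun H => ?_)
  · refine congrArg _ (Nat.card_congr (Equiv.subtypeEquiv (MulAut.conj (g : G)).mapSubgroup.toEquiv
      fun H => ?_).symm)
    change _ ↔ P ⊓ normalizer ((H.map (MulAut.conj (g : G)).toMonoidHom : Subgroup G) : Set G) ⊔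
      H.map (MulAut.conj (g : G)).toMonoidHom = Y.map (MulAut.conj (g : G)).toMonoidHom ∧
      (Nat.card (H.map (MulAut.conj (g : G)).toMonoidHom) = p ^ a ∧
        ¬ H.map (MulAut.conj (g : G)).toMonoidHom ≤ P) ∧ (normalizer
          ((H.map (MulAut.conj (g : G)).toMonoidHom : Subgroup G) : Set G)).relIndex P = p
    rw [relIndex_normalizer_map_conj g.2, card_map_conj, map_conj_le_iff (le_normalizer g.2),
      normalizer_map_conj, ← (map_injective (MulAut.conj (g : G)).injective).eq_iff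
        (f := map (MulAut.conj (g : G)).toMonoidHom), Subgroup.map_sup,
      map_inf _ _ _ (MulAut.conj (g : G)).injective, Coprime.map_conj_eq_of_mem g.2]
  · rcases isEmpty_or_nonempty {H : Subgroup G // P ⊓ normalizer (H : Set G) ⊔ H = Y ∧
      (Nat.card H = p ^ a ∧ ¬ H ≤ P) ∧ (normalizer (H : Set G)).relIndex P = p}
      with _ | ⟨⟨H, rfl, ⟨h1, h2⟩, h3⟩⟩
    · simp
    rw [index_stabilizer_conjActionSub, sq]
    exact mul_dvd_mul (Int.natCast_dvd_natCast.mpr (key _ (isPGroup_sup_of_le_normalizer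
      (hP.2.1.to_le inf_le_left) (IsPGroup.of_card h1) inf_le_right)
      fun h => h2 (le_sup_right.trans h)))
      (Int.natCast_dvd_natCast.mpr (dvd_card_fiber_not_le hP ha h1 h2 h3))
  · change (Nat.card (H.map (MulAut.conj (g : G)).toMonoidHom) = p ^ a ∧
        ¬ H.map (MulAut.conj (g : G)).toMonoidHom ≤ P) ∧ ¬ (normalizer
          ((H.map (MulAut.conj (g : G)).toMonoidHom : Subgroup G) : Set G)).relIndex P = p ↔ _
    rw [relIndex_normalizer_map_conj g.2, card_map_conj, map_conj_le_iff (le_normalizer g.2)]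
  · split_ifs with h
    swap
    · simp
    have h1 := key H (IsPGroup.of_card h.1.1) h.1.2
    obtain ⟨d, hd⟩ := exists_relIndex_eq_pow (H := normalizer (H : Set G)) hP.2.1
    rw [index_stabilizer_conjActionSub, mul_one, hd]
    rcases d with _ | _ | d
    · exact absurd (Nat.dvd_one.mp (h1.trans hd.dvd)) hp.out.one_lt.ne'
    · exact absurd (hd.trans (pow_one p)) h.2
    · exact_mod_cast pow_dvd_pow p (by omega)

theorem card_subgroups_modEq_sylow {P : Subgroup G} (hP : Coprime.IsSylowIn p P ⊤) {a : ℕ}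
    (ha : p ^ (a + 1) ≤ Nat.card P) : Nat.card {H : Subgroup G // Nat.card H = p ^ a} ≡
      Nat.card {H : Subgroup P // Nat.card H = p ^ a} [MOD p ^ 2] := by
  rw [card_eq_card_add_card _ (· ≤ P), ← card_subgroups_le,
    Nat.card_congr (Equiv.subtypeEquivRight fun _ => and_comm)]
  exact (Nat.ModEq.refl _).add ((Nat.modEq_zero_iff_dvd).mpr (sq_dvd_card_not_le hP ha))

omit hp in
theorem card_subgroups_of_isCyclic [IsCyclic G] {n : ℕ} {K : Subgroup G} (h : Nat.card K = n) :
    Nat.card {H : Subgroup G // Nat.card H = n} = 1 :=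
  Nat.card_eq_one_iff_exists.mpr ⟨⟨K, h⟩, fun H => Subtype.ext (le_antisymm
    (le_of_card_dvd_of_isCyclic_top (H.2.trans h.symm).dvd)
    (le_of_card_dvd_of_isCyclic_top (h.trans H.2.symm).dvd))⟩

end Cfsg.Agent.PGrp
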